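import Mathlib
import Cfsg.Agent.H507.SzCase
import Cfsg.Agent.ThreePrime.Main
import Cfsg.Agent.S1163
import Cfsg.Agent.S0144
import Cfsg.Agent.OddOrderLocal.HallPi
import Cfsg.Agent.H988.CPi

/-!
# TEAM RV, R6: nonsolvable groups of order prime to 3 without `Sz(q)`, `q > 8` (helper171)

`main`: let `H` be a finite group of order prime to 3 such that no order of a Suzuki group `Sz(q)`, `q > 8`, divides `|H|`
and `169 ∤ |H|`. Then `H` is solvable or `29120 ∣ |H|` and `H` has a Hall `{2,7}`-subgroup.
-/

set_option autoImplicit false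

namespace Cfsg.Agent.H171.RV.SzHall

open Subgroup Cfsg Cfsg.Agent.SignalizersComponents Cfsg.Agent.H507.SzCase

universe u

/-- order of `Sz(2^(2m+1))` -/
def szc (m : ℕ) : ℕ := (2 ^ (2 * m + 1)) ^ 2 * (2 ^ (2 * m + 1) - 1) * ((2 ^ (2 * m + 1)) ^ 2 + 1)

theorem exists_sylow {L : Type u} [Group L] [Finite L] [IsSimpleGroup L] (hna : ∃ a b : L, a * b ≠ b * a)
    (h3 : ¬ 3 ∣ Nat.card L) (hN : ∀ m, 1 ≤ m → szc m ∣ Nat.card L → m = 1) :
    Nat.card L = 29120 ∧ ∃ T : Sylow 2 L, Nat.card (normalizer ((T : Subgroup L) : Set L)) = 448 := by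
  have hF2 : Fact (Nat.Prime 2) := ⟨Nat.prime_two⟩
  obtain ⟨F, hF1, hF2', m, hm, hF, ⟨e⟩⟩ := ThreePrime.Main.isoSuzuki hna h3
  obtain ⟨hc, S, hS, -⟩ := S1163.result hm hF
  have hcL : Nat.card L = szc m := (Nat.card_congr e.toEquiv).trans hc
  have hm1 := hN m hm (dvd_of_eq hcL.symm)
  subst hm1
  refine ⟨hcL.trans (by norm_num [szc]), ?_⟩
  have hfin : Finite ↥(Cfsg.Lie.Sz F (2 ^ (1 + 1))) := Finite.of_equiv _ e.toEquiv
  have h1 : IsPGroup 2 ((S : Subgroup _).map e.symm.toMonoidHom) := S.isPGroup'.map _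
  have h2 : ¬ 2 ∣ ((S : Subgroup _).map e.symm.toMonoidHom).index := by
    rw [Subgroup.index_map_of_bijective e.symm.bijective]
    exact S.not_dvd_index
  refine ⟨h1.toSylow h2, ?_⟩
  rw [IsPGroup.toSylow_coe, ← Subgroup.map_equiv_normalizer_eq,
    Subgroup.card_map_of_injective e.symm.injective, hS]
  norm_num

theorem isPiHall_of {G : Type u} [Group G] [Finite G] {π : Set ℕ} {M : Subgroup G} {K : Subgroup M}
    (hK : IsPiHall π K) (hM : ∀ p : ℕ, p.Prime → p ∈ π → ¬ p ∣ M.index) : IsPiHall π (K.map M.subtype) := by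
  refine ⟨fun p hp hd => hK.1 p hp ?_, fun p hp hπ hd => ?_⟩
  · rwa [Subgroup.card_map_of_injective M.subtype_injective] at hd
  · have h1 : (K.map M.subtype).index = K.index * M.index := by
      have h2 := Subgroup.card_mul_index (K.map M.subtype)
      rw [Subgroup.card_map_of_injective M.subtype_injective, ← Subgroup.card_mul_index M, ← Subgroup.card_mul_index K,
        mul_assoc] at h2
      exact Nat.eq_of_mul_eq_mul_left Nat.card_pos h2
    rw [h1] at hd
    rcases hp.dvd_mul.1 hd with h | h
    · exact hK.2 p hp hπ h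
    · exact hM p hp hπ h

theorem exists_hall {M : Type u} [Group M] [Finite M] (hs : Group.IsSolvable M) (π : Set ℕ) :
    ∃ K : Subgroup M, IsPiHall π K := by
  obtain ⟨K, h1, h2, -⟩ := Cfsg.Agent.OddOrderLocal.HallPi.exists_hall_ge_top (G := M) π (X := ⊥) (by
    intro p hp hd
    rw [Subgroup.card_bot] at hd
    exact absurd (Nat.dvd_one.1 hd) hp.one_lt.ne')
  exact ⟨K, h1, h2⟩

/-- a `{2,7}`-group is solvable -/
theorem sol_of_card {K : Type u} [Group K] [Finite K] (h : ∀ p : ℕ, p.Prime → p ∣ Nat.card K → p ∈ ({2, 7} : Set ℕ)) :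
    Group.IsSolvable K := by
  obtain ⟨a, m, hm, ha⟩ := Nat.exists_eq_pow_mul_and_not_dvd (Nat.card_pos (α := K)).ne' 2 (by norm_num)
  have hm0 : m ≠ 0 := by rintro rfl; exact hm (dvd_zero 2)
  obtain ⟨b, c, hc, hb⟩ := Nat.exists_eq_pow_mul_and_not_dvd hm0 7 (by norm_num)
  have hc1 : c = 1 := by
    by_contra hne
    obtain ⟨p, hp, hd⟩ := Nat.exists_prime_and_dvd hne
    have h1 : p ∣ Nat.card K := by rw [ha, hb]; exact dvd_mul_of_dvd_right (dvd_mul_of_dvd_right hd _) _
    rcases h p hp h1 with h2 | h2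
    · rw [h2] at hd
      exact hm (by rw [hb]; exact dvd_mul_of_dvd_right hd _)
    · rw [Set.mem_singleton_iff] at h2
      rw [h2] at hd
      exact hc hd
  rw [hc1, mul_one] at hb
  exact S0144.result 2 7 a b Nat.prime_two (by norm_num) (by rw [ha, hb])

theorem main (n : ℕ) : ∀ (H : Type u) [Group H] [Finite H], Nat.card H = n → ¬ 3 ∣ n →
    (∀ m, 1 ≤ m → szc m ∣ n → m = 1) → ¬ 13 * 13 ∣ n →
    Group.IsSolvable H ∨ (29120 ∣ n ∧ ∃ K : Subgroup H, IsPiHall ({2, 7} : Set ℕ) K) := by
  induction n using Nat.strong_induction_on with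
  | _ n ih =>
  intro H _ _ hn h3 hN h13
  by_cases hsol : Group.IsSolvable H
  · exact Or.inl hsol
  right
  -- the quotient by a nontrivial normal subgroup
  have step : ∀ (N : Subgroup H) [N.Normal], N ≠ ⊥ → ¬ Group.IsSolvable (H ⧸ N) →
      29120 ∣ Nat.card (H ⧸ N) ∧ ∃ K : Subgroup (H ⧸ N), IsPiHall ({2, 7} : Set ℕ) K := by
    intro N hNn hne hns
    have hc := Subgroup.card_eq_card_quotient_mul_card_subgroup N
    rw [hn] at hc
    have hd : Nat.card (H ⧸ N) ∣ n := ⟨_, hc⟩
    have hlt : Nat.card (H ⧸ N) < n := by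
      have h1 : 1 < Nat.card N := by
        rw [Subgroup.one_lt_card_iff_ne_bot]; exact hne
      have h2 : 0 < Nat.card (H ⧸ N) := Nat.card_pos
      rw [hc]
      nlinarith
    rcases ih _ hlt (H ⧸ N) rfl (fun h => h3 (h.trans hd)) (fun m hm h => hN m hm (h.trans hd))
      (fun h => h13 (h.trans hd)) with h | h
    · exact absurd h hns
    · exact h
  by_cases hR : ∃ N : Subgroup H, N.Normal ∧ N ≠ ⊥ ∧ Group.IsSolvable N
  · obtain ⟨N, hNn, hne, hNs⟩ := hR
    have hns : ¬ Group.IsSolvable (H ⧸ N) := by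
      intro h
      exact hsol (Group.isSolvable_of_ker_le_range N.subtype (QuotientGroup.mk' N)
        (by rw [QuotientGroup.ker_mk', Subgroup.range_subtype]))
    obtain ⟨hd, K, hK⟩ := step N hne hns
    have hdn : Nat.card (H ⧸ N) ∣ n := by
      rw [← hn]; exact ⟨_, Subgroup.card_eq_card_quotient_mul_card_subgroup N⟩
    refine ⟨hd.trans hdn, ?_⟩
    have hKs : Group.IsSolvable K := sol_of_card hK.1
    set M : Subgroup H := K.comap (QuotientGroup.mk' N) with hM
    have hMs : Group.IsSolvable M := by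
      let f : M →* K := ((QuotientGroup.mk' N).comp M.subtype).codRestrict K (fun x => x.2)
      have hNM : N ≤ M := by
        intro x hx
        rw [hM, mem_comap]
        have h1 : QuotientGroup.mk' N x = 1 := (QuotientGroup.eq_one_iff x).2 hx
        rw [h1]; exact K.one_mem
      refine Group.isSolvable_of_ker_le_range (Subgroup.inclusion hNM) f ?_
      intro x hx
      have h1 : f x = 1 := hx
      have h2 : QuotientGroup.mk' N (x : H) = 1 := congrArg Subtype.val h1
      have h3 : (x : H) ∈ N := (QuotientGroup.eq_one_iff _).1 h2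
      exact ⟨⟨x, h3⟩, Subtype.ext rfl⟩
    obtain ⟨K', hK'⟩ := exists_hall hMs ({2, 7} : Set ℕ)
    refine ⟨K'.map M.subtype, isPiHall_of hK' fun p hp hπ hd => hK.2 p hp hπ ?_⟩
    rwa [hM, Subgroup.index_comap_of_surjective _ (QuotientGroup.mk'_surjective N)] at hd
  -- no solvable normal subgroup
  push Not at hR
  have hfit : fittingSubgroup H = ⊥ := by
    refine fitting_eq_bot fun p hp N hNn hNp => ?_
    by_contra hne
    have hfp : Fact p.Prime := ⟨hp⟩
    have := hNp.isNilpotent
    exact hR N hNn hne inferInstance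
  have hcomp : ∃ L : Subgroup H, IsComponent L := by
    by_contra hcon
    push Not at hcon
    have h1 : layer H = ⊥ := by
      rw [eq_bot_iff, Components.layer_le_iff]
      intro K hK
      exact absurd hK (hcon K)
    have h2 : generalizedFittingSubgroup H = ⊥ := by
      rw [generalizedFittingSubgroup, h1, hfit, bot_sup_eq]
    have h3 := Cfsg.Agent.S1265.result (G := H)
    rw [h2] at h3
    apply hsol
    have h4 : ∀ x : H, x = 1 := by
      intro x
      have h5 : x ∈ centralizer ((⊥ : Subgroup H) : Set H) := by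
        rw [mem_centralizer_iff]
        intro y hy
        rw [SetLike.mem_coe, mem_bot] at hy
        rw [hy, one_mul, mul_one]
      exact mem_bot.1 (h3 h5)
    have : Subsingleton H := ⟨fun a b => (h4 a).trans (h4 b).symm⟩
    infer_instance
  obtain ⟨L, hL⟩ := hcomp
  have hcardL : ∀ {Y : Subgroup H}, IsComponent Y → Nat.card Y = 29120 ∧ ∃ T : Sylow 2 Y,
      Nat.card (normalizer ((T : Subgroup Y) : Set Y)) = 448 := by
    intro Y hY
    have hs := component_simple hfit hY
    have hd : Nat.card Y ∣ n := by rw [← hn]; exact card_subgroup_dvd_card Y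
    refine exists_sylow ?_ (fun h => h3 (h.trans hd)) (fun m hm h => hN m hm (h.trans hd))
    by_contra hcon
    push Not at hcon
    exact Components.quasisimple_not_isMulCommutative hY.2 ⟨⟨hcon⟩⟩
  -- unique component
  have huniq : ∀ Z : Subgroup H, IsComponent Z → Z = L := by
    intro Z hZ
    by_contra hZL
    have h1 := Components.component_le_centralizer_of_ne hZ hL hZL
    have hcomm : ∀ (z : Z) (l : L), Commute (Z.subtype z) (L.subtype l) := by
      intro z l
      exact ((mem_centralizer_iff.mp (h1 z.2)) l l.2).symm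
    have hZLb : Z ⊓ L = ⊥ := by
      have hsL := component_simple hfit hL
      rw [eq_bot_iff]
      intro x hx
      have hxc : (⟨x, hx.2⟩ : L) ∈ center L := by
        rw [mem_center_iff]
        intro y
        exact Subtype.ext ((mem_centralizer_iff.mp (h1 hx.1)) y y.2)
      have hcb : center L = ⊥ := by
        rcases hsL.eq_bot_or_eq_top_of_normal (center L) inferInstance with h | h
        · exact h
        · exfalso
          apply Components.quasisimple_not_isMulCommutative hL.2
          refine ⟨⟨fun a b => ?_⟩⟩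
          have ha : a ∈ center L := by rw [h]; exact mem_top _
          exact (mem_center_iff.1 ha b).symm
      rw [hcb, mem_bot] at hxc
      exact mem_bot.2 (congrArg Subtype.val hxc)
    let f : Z × L →* H := MonoidHom.noncommCoprod Z.subtype L.subtype hcomm
    have hf : Function.Injective f := by
      rw [injective_iff_map_eq_one]
      rintro ⟨z, l⟩ h
      have h2 : (z : H) * l = 1 := h
      have h4 : (z : H) = (l : H)⁻¹ := eq_inv_of_mul_eq_one_left h2
      have h5 : (z : H) ∈ Z ⊓ L := ⟨z.2, by rw [h4]; exact L.inv_mem l.2⟩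
      rw [hZLb, mem_bot] at h5
      have h6 : (l : H) = 1 := by
        rw [h5, one_mul] at h2; exact h2
      exact Prod.ext (Subtype.ext h5) (Subtype.ext h6)
    have h2 : Nat.card (Z × L) ∣ Nat.card H := Subgroup.card_dvd_of_injective f hf
    rw [Nat.card_prod, (hcardL hZ).1, (hcardL hL).1, hn] at h2
    exact h13 ((by norm_num : 13 * 13 ∣ 29120 * 29120).trans h2)
  have hlay : layer H = L := by
    apply le_antisymm
    · rw [Components.layer_le_iff]
      exact fun K hK => (huniq K hK).le
    · exact Components.component_le_layer hL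
  have hLn : L.Normal := hlay ▸ Components.layer_normal H
  obtain ⟨hcL, T, hT⟩ := hcardL hL
  have hLne : L ≠ ⊥ := by
    rintro rfl
    rw [Subgroup.card_bot] at hcL
    norm_num at hcL
  have hLd : 29120 ∣ n := by rw [← hcL, ← hn]; exact card_subgroup_dvd_card L
  refine ⟨hLd, ?_⟩
  have hqs : Group.IsSolvable (H ⧸ L) := by
    by_contra hns
    obtain ⟨hd, -⟩ := step L hLne hns
    have hc := Subgroup.card_eq_card_quotient_mul_card_subgroup L
    rw [hn, hcL] at hc
    exact h13 (by rw [hc]; exact mul_dvd_mul ((by norm_num : 13 ∣ 29120).trans hd) (by norm_num))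
  -- Frattini
  set Q : Subgroup H := (T : Subgroup L).map L.subtype with hQ
  have hfr : normalizer (Q : Set H) ⊔ L = ⊤ := Sylow.normalizer_sup_eq_top T
  have hNY : (normalizer (Q : Set H)).subgroupOf L = normalizer ((T : Subgroup L) : Set L) := by
    ext g
    rw [mem_subgroupOf, mem_normalizer_iff, mem_normalizer_iff]
    constructor
    · intro h x
      have := h x
      rw [hQ] at this
      constructor
      · intro hx
        obtain ⟨z, hz, hz'⟩ := (this.1 ⟨x, hx, rfl⟩)
        have : z = g * x * g⁻¹ := Subtype.ext hz'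
        rwa [← this]
      · intro hx
        obtain ⟨z, hz, hz'⟩ := (this.2 ⟨g * x * g⁻¹, hx, rfl⟩)
        have : z = x := Subtype.ext hz'
        rwa [← this]
    · intro h x
      rw [hQ]
      constructor
      · rintro ⟨z, hz, rfl⟩
        exact ⟨g * z * g⁻¹, (h z).1 hz, rfl⟩
      · rintro ⟨z, hz, hz'⟩
        refine ⟨g⁻¹ * z * g, ?_, ?_⟩
        · refine (h _).2 ?_
          rwa [show (g : L) * (g⁻¹ * z * g) * g⁻¹ = z by group]
        · show (g : H)⁻¹ * (z : H) * g = x
          rw [show (z : H) = g * x * (g : H)⁻¹ from hz']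
          group
  set N0 : Subgroup H := normalizer (Q : Set H) with hN0
  have hidx : N0.index = 65 := by
    have h1 := H988.CPi.relIndex_mul_sup_index N0 L
    rw [hfr, index_top, mul_one, relIndex, hNY] at h1
    have h2 := card_mul_index (normalizer ((T : Subgroup L) : Set L))
    rw [hT, hcL] at h2
    rw [← h1]
    omega
  have hN0s : Group.IsSolvable N0 := by
    have hk : Group.IsSolvable (N0.subgroupOf L) := by
      apply S0144.result 2 7 6 1 Nat.prime_two (by norm_num)
      rw [hNY, hT]
      norm_num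
    let f : N0 →* H ⧸ L := (QuotientGroup.mk' L).comp N0.subtype
    let g : (N0.subgroupOf L) →* N0 :=
      (L.subtype.comp (N0.subgroupOf L).subtype).codRestrict N0 (fun x => mem_subgroupOf.1 x.2)
    refine Group.isSolvable_of_ker_le_range g f ?_
    intro x hx
    have h2 : QuotientGroup.mk' L (x : H) = 1 := hx
    have h4 : (x : H) ∈ L := (QuotientGroup.eq_one_iff _).1 h2
    exact ⟨⟨⟨x, h4⟩, mem_subgroupOf.2 x.2⟩, Subtype.ext rfl⟩
  obtain ⟨K', hK'⟩ := exists_hall hN0s ({2, 7} : Set ℕ)
  refine ⟨K'.map N0.subtype, isPiHall_of hK' fun p hp hπ hd => ?_⟩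
  rw [hidx] at hd
  rcases hπ with rfl | h
  · norm_num at hd
  · rw [Set.mem_singleton_iff] at h
    subst h
    norm_num at hd

end Cfsg.Agent.H171.RV.SzHall
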